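import Cfsg.Agent.H138.E8L.Mat

/-!
# S5925, box F2: the transfer (helper138)

`herm_io` : `T`, `N` matrices with `N σ(T) = T N`, `io` the linear map from pairs of 5x5 matrices, `T` acts by
`(A0, A1) ↦ (-q0⁻¹ A0ᵀ q0, -q1⁻¹ A1ᵀ q1)` and `N` by `(A0, A1) ↦ (-M1 A1ᵀ M1ᵀ, M0 A0 M0ᵀ)`: then `q0` can be chosen with
entries in `F_81` and `q0 R q0^(9) R = 1`, `q1 = M0 q0^(3) M0ᵀ`.
-/

set_option autoImplicit false

namespace Cfsg.Agent.H138.E8L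

open Matrix

variable {K : Type*} [Field K]

theorem map_inv_frob [CharP K 3] {q : Matrix (Fin 5) (Fin 5) K} (h : IsUnit q.det) :
    (q⁻¹).map (frobenius K 3) = (q.map (frobenius K 3))⁻¹ := by
  symm
  apply Matrix.inv_eq_left_inv
  rw [← Matrix.map_mul, Matrix.nonsing_inv_mul q h]
  ext i j
  simp [Matrix.one_apply]

/-- **S5925, F2.** -/
theorem herm_io {Idx : Type*} [Fintype Idx] [IsAlgClosed K] [CharP K 3]
    (io : (Matrix (Fin 5) (Fin 5) K × Matrix (Fin 5) (Fin 5) K) →ₗ[K] (Idx → K))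
    (hinj : ∀ A0 A1 B0 B1 : Matrix (Fin 5) (Fin 5) K, A0.trace = 0 → A1.trace = 0 → B0.trace = 0 → B1.trace = 0 →
      io (A0, A1) = io (B0, B1) → A0 = B0 ∧ A1 = B1)
    (hσ : ∀ (A0 A1 : Matrix (Fin 5) (Fin 5) K) (i : Idx),
      io (A0.map (frobenius K 3), A1.map (frobenius K 3)) i = io (A0, A1) i ^ 3)
    {T N : Matrix Idx Idx K} (hTN : N * T.map (frobenius K 3) = T * N)
    (hNa : ∀ A0 A1 : Matrix (Fin 5) (Fin 5) K, A0.trace = 0 → A1.trace = 0 →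
      N *ᵥ io (A0, A1) = io (-(M1 * A1ᵀ * M1ᵀ), M0 * A0 * M0ᵀ))
    {q0 q1 : Matrix (Fin 5) (Fin 5) K} (h0 : IsUnit q0.det) (h1 : IsUnit q1.det) (hs0 : q0ᵀ = q0) (hs1 : q1ᵀ = q1)
    (hT : ∀ A0 A1 : Matrix (Fin 5) (Fin 5) K, A0.trace = 0 → A1.trace = 0 →
      T *ᵥ io (A0, A1) = io (-(q0⁻¹ * A0ᵀ * q0), -(q1⁻¹ * A1ᵀ * q1))) :
    ∃ q : Matrix (Fin 5) (Fin 5) K, qᵀ = q ∧ IsUnit q.det ∧ (∀ i j, q i j ^ 81 = q i j) ∧
      q * RR * q.map (fun x => x ^ 9) * RR = 1 ∧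
      ∀ A0 A1 : Matrix (Fin 5) (Fin 5) K, A0.trace = 0 → A1.trace = 0 →
        T *ᵥ io (A0, A1) = io (-(q⁻¹ * A0ᵀ * q),
          -((M0 * q.map (fun x => x ^ 3) * M0ᵀ)⁻¹ * A1ᵀ * (M0 * q.map (fun x => x ^ 3) * M0ᵀ))) := by
  classical
  set s : K →+* K := frobenius K 3 with hs
  have hsx : ∀ x, s x = x ^ 3 := fun x => rfl
  -- every matrix is a Frobenius image
  have hsurj : ∀ A : Matrix (Fin 5) (Fin 5) K, ∃ B : Matrix (Fin 5) (Fin 5) K, B.map s = A := by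
    intro A
    choose f hf using fun i j => IsAlgClosed.exists_pow_nat_eq (A i j) (n := 3) (by norm_num)
    refine ⟨Matrix.of fun i j => f i j, ?_⟩
    ext i j
    simp only [Matrix.map_apply, Matrix.of_apply, hsx]
    exact hf i j
  have htr : ∀ B : Matrix (Fin 5) (Fin 5) K, (B.map s).trace = 0 → B.trace = 0 := by
    intro B hB
    have h2 : (B.map s).trace = s B.trace := by
      rw [Matrix.trace, Matrix.trace, map_sum]
      rfl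
    rw [h2, hsx] at hB
    exact pow_eq_zero_iff (by norm_num) |>.1 hB
  have hvec : ∀ (T : Matrix Idx Idx K) (v : Idx → K), T.map s *ᵥ (fun i => v i ^ 3) = fun i => (T *ᵥ v) i ^ 3 := by
    intro T v
    funext i
    show (∑ j, s (T i j) * v j ^ 3) = (∑ j, T i j * v j) ^ 3
    rw [← hsx (∑ j, T i j * v j), map_sum]
    exact Finset.sum_congr rfl fun j _ => by rw [map_mul, hsx (v j)]
  have hio : ∀ A0 A1 : Matrix (Fin 5) (Fin 5) K, io (A0.map s, A1.map s) = fun i => io (A0, A1) i ^ 3 :=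
    fun A0 A1 => funext fun i => hσ A0 A1 i
  have hm : ∀ A B : Matrix (Fin 5) (Fin 5) K, (A * B).map s = A.map s * B.map s := fun A B => Matrix.map_mul
  have hneg : ∀ A : Matrix (Fin 5) (Fin 5) K, (-A).map s = -(A.map s) := fun A => by
    ext i j
    simp
  have hz : (0 : Matrix (Fin 5) (Fin 5) K).map s = 0 := by
    ext i j
    simp
  have htc : ∀ P A : Matrix (Fin 5) (Fin 5) K, IsUnit P.det → A.trace = 0 → (P⁻¹ * Aᵀ * P).trace = 0 := by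
    intro P A hP hA
    rw [Matrix.trace_mul_comm, ← Matrix.mul_assoc, Matrix.mul_nonsing_inv P hP, Matrix.one_mul, Matrix.trace_transpose,
      hA]
  have us0 : IsUnit (q0.map s).det := by
    rw [← RingHom.mapMatrix_apply, ← RingHom.map_det]
    exact h0.map s
  have us1 : IsUnit (q1.map s).det := by
    rw [← RingHom.mapMatrix_apply, ← RingHom.map_det]
    exact h1.map s
  -- the action of `T.map s`
  have hTs : ∀ A0 A1 : Matrix (Fin 5) (Fin 5) K, A0.trace = 0 → A1.trace = 0 →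
      T.map s *ᵥ io (A0, A1) = io (-((q0.map s)⁻¹ * A0ᵀ * q0.map s), -((q1.map s)⁻¹ * A1ᵀ * q1.map s)) := by
    intro A0 A1 t0 t1
    obtain ⟨B0, rfl⟩ := hsurj A0
    obtain ⟨B1, rfl⟩ := hsurj A1
    rw [hio, hvec, hT B0 B1 (htr _ t0) (htr _ t1), ← hio]
    congr 1
    rw [hneg, hneg, hm, hm, hm, hm, map_inv_frob h0, map_inv_frob h1, Matrix.transpose_map, Matrix.transpose_map]
  have main : ∀ A0 A1 : Matrix (Fin 5) (Fin 5) K, A0.trace = 0 → A1.trace = 0 →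
      N *ᵥ (T.map s *ᵥ io (A0, A1)) = T *ᵥ (N *ᵥ io (A0, A1)) := by
    intro A0 A1 _ _
    rw [Matrix.mulVec_mulVec, Matrix.mulVec_mulVec, hTN]
  have hM0 : ∀ A : Matrix (Fin 5) (Fin 5) K, A.trace = 0 → (M0 * A * M0ᵀ).trace = 0 := by
    intro A hA
    rw [Matrix.trace_mul_comm, ← Matrix.mul_assoc, M0_mul', Matrix.one_mul, hA]
  have hM1 : ∀ A : Matrix (Fin 5) (Fin 5) K, A.trace = 0 → (M1 * A * M1ᵀ).trace = 0 := by
    intro A hA
    rw [Matrix.trace_mul_comm, ← Matrix.mul_assoc, M1_mul', Matrix.one_mul, hA]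
  have hng : ∀ A : Matrix (Fin 5) (Fin 5) K, A.trace = 0 → (-A).trace = 0 := by
    intro A hA
    rw [Matrix.trace_neg, hA, neg_zero]
  have htT : ∀ A : Matrix (Fin 5) (Fin 5) K, A.trace = 0 → Aᵀ.trace = 0 := by
    intro A hA
    rw [Matrix.trace_transpose, hA]
  have key : ∀ A0 A1 : Matrix (Fin 5) (Fin 5) K, A0.trace = 0 → A1.trace = 0 →
      -(M1 * (-((q1.map s)⁻¹ * A1ᵀ * q1.map s))ᵀ * M1ᵀ) = -(q0⁻¹ * (-(M1 * A1ᵀ * M1ᵀ))ᵀ * q0) ∧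
      M0 * -((q0.map s)⁻¹ * A0ᵀ * q0.map s) * M0ᵀ = -(q1⁻¹ * (M0 * A0 * M0ᵀ)ᵀ * q1) := by
    intro A0 A1 t0 t1
    have h2 := main A0 A1 t0 t1
    have a1 := hng _ (htc _ _ us0 t0)
    have a2 := hng _ (htc _ _ us1 t1)
    have a3 := hng _ (hM1 _ (htT _ t1))
    have a4 := hM0 _ t0
    rw [hTs A0 A1 t0 t1, hNa _ _ a1 a2, hNa A0 A1 t0 t1, hT _ _ a3 a4] at h2
    exact hinj _ _ _ _ (hng _ (hM1 _ (htT _ a2))) (hM0 _ a1) (hng _ (htc _ _ h0 a3)) (hng _ (htc _ _ h1 a4)) h2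
  have hss1 : (q1.map s)ᵀ = q1.map s := by rw [← Matrix.transpose_map, hs1]
  have hi0 : (q0⁻¹)ᵀ = q0⁻¹ := by rw [Matrix.transpose_nonsing_inv, hs0]
  have hi1 : ((q1.map s)⁻¹)ᵀ = (q1.map s)⁻¹ := by rw [Matrix.transpose_nonsing_inv, hss1]
  have iM0 : (M0ᵀ * q1 * M0)⁻¹ = M0ᵀ * q1⁻¹ * M0 := by
    apply Matrix.inv_eq_right_inv
    calc M0ᵀ * q1 * M0 * (M0ᵀ * q1⁻¹ * M0) = M0ᵀ * q1 * (M0 * M0ᵀ) * q1⁻¹ * M0 := by simp only [Matrix.mul_assoc]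
      _ = M0ᵀ * (q1 * q1⁻¹) * M0 := by rw [M0_mul, Matrix.mul_one]; simp only [Matrix.mul_assoc]
      _ = 1 := by rw [Matrix.mul_nonsing_inv q1 h1, Matrix.mul_one, M0_mul']
  have iM1 : (M1ᵀ * q0⁻¹ * M1)⁻¹ = M1ᵀ * q0 * M1 := by
    apply Matrix.inv_eq_right_inv
    calc M1ᵀ * q0⁻¹ * M1 * (M1ᵀ * q0 * M1) = M1ᵀ * q0⁻¹ * (M1 * M1ᵀ) * q0 * M1 := by simp only [Matrix.mul_assoc]
      _ = M1ᵀ * (q0⁻¹ * q0) * M1 := by rw [M1_mul, Matrix.mul_one]; simp only [Matrix.mul_assoc]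
      _ = 1 := by rw [Matrix.nonsing_inv_mul q0 h0, Matrix.mul_one, M1_mul']
  obtain ⟨q, a, b, ha, hb, hq, hqs, hqu, h81, hher, h3⟩ := herm h0 h1 hs0
    (by
      intro A hA
      have h2 := (key A 0 hA (by simp)).2
      have h4 : M0 * ((q0.map s)⁻¹ * Aᵀ * q0.map s) * M0ᵀ = q1⁻¹ * (M0 * Aᵀ * M0ᵀ) * q1 := by
        have h5 : (M0 * A * M0ᵀ)ᵀ = M0 * Aᵀ * M0ᵀ := by
          rw [Matrix.transpose_mul, Matrix.transpose_mul, Matrix.transpose_transpose, ← Matrix.mul_assoc]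
        rw [h5, Matrix.mul_neg, Matrix.neg_mul, neg_inj] at h2
        exact h2
      rw [iM0]
      calc (q0.map s)⁻¹ * Aᵀ * q0.map s =
          (M0ᵀ * M0) * ((q0.map s)⁻¹ * Aᵀ * q0.map s) * (M0ᵀ * M0) := by rw [M0_mul', Matrix.one_mul, Matrix.mul_one]
        _ = M0ᵀ * (M0 * ((q0.map s)⁻¹ * Aᵀ * q0.map s) * M0ᵀ) * M0 := by simp only [Matrix.mul_assoc]
        _ = M0ᵀ * (q1⁻¹ * (M0 * Aᵀ * M0ᵀ) * q1) * M0 := by rw [h4]
        _ = M0ᵀ * q1⁻¹ * M0 * Aᵀ * (M0ᵀ * q1 * M0) := by simp only [Matrix.mul_assoc])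
    (by
      intro A hA
      have h2 := (key 0 A (by simp) hA).1
      have h4 : M1 * (q1.map s * A * (q1.map s)⁻¹) * M1ᵀ = q0⁻¹ * (M1 * A * M1ᵀ) * q0 * (-1) * (-1) := by
        have h5 : (-((q1.map s)⁻¹ * Aᵀ * q1.map s))ᵀ = -(q1.map s * A * (q1.map s)⁻¹) := by
          rw [Matrix.transpose_neg, Matrix.transpose_mul, Matrix.transpose_mul, Matrix.transpose_transpose, hss1, hi1,
            ← Matrix.mul_assoc]
        have h6 : (-(M1 * Aᵀ * M1ᵀ))ᵀ = -(M1 * A * M1ᵀ) := by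
          rw [Matrix.transpose_neg, Matrix.transpose_mul, Matrix.transpose_mul, Matrix.transpose_transpose,
            Matrix.transpose_transpose, ← Matrix.mul_assoc]
        rw [h5, h6, Matrix.mul_neg, Matrix.neg_mul, neg_neg, Matrix.mul_neg, Matrix.neg_mul, neg_neg] at h2
        rw [h2, Matrix.mul_neg, Matrix.mul_one, Matrix.mul_neg, Matrix.mul_one, neg_neg]
      have h7 := congrArg Matrix.transpose h4
      rw [Matrix.mul_neg, Matrix.mul_one, Matrix.mul_neg, Matrix.mul_one, neg_neg] at h7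
      have h8 : M1 * ((q1.map s)⁻¹ * Aᵀ * q1.map s) * M1ᵀ = q0 * (M1 * Aᵀ * M1ᵀ) * q0⁻¹ := by
        simp only [Matrix.transpose_mul, Matrix.transpose_transpose, hss1, hi1, hi0, hs0] at h7
        simp only [Matrix.mul_assoc] at h7 ⊢
        exact h7
      rw [iM1]
      calc (q1.map s)⁻¹ * Aᵀ * q1.map s =
          (M1ᵀ * M1) * ((q1.map s)⁻¹ * Aᵀ * q1.map s) * (M1ᵀ * M1) := by rw [M1_mul', Matrix.one_mul, Matrix.mul_one]
        _ = M1ᵀ * (M1 * ((q1.map s)⁻¹ * Aᵀ * q1.map s) * M1ᵀ) * M1 := by simp only [Matrix.mul_assoc]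
        _ = M1ᵀ * (q0 * (M1 * Aᵀ * M1ᵀ) * q0⁻¹) * M1 := by rw [h8]
        _ = M1ᵀ * q0 * M1 * Aᵀ * (M1ᵀ * q0⁻¹ * M1) := by simp only [Matrix.mul_assoc])
  refine ⟨q, hqs, hqu, h81, hher, fun A0 A1 t0 t1 => ?_⟩
  rw [hT A0 A1 t0 t1, h3, hq, conj_smul ha, conj_smul hb]

end Cfsg.Agent.H138.E8L
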