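import Cfsg.Agent.H138.E8L.Scal
import Cfsg.Agent.H183.E8F.NIo

/-!
# S5925, box F2: the instance in `E₈(k)` (helper138)
-/

set_option autoImplicit false

namespace Cfsg.Agent.H138.E8L

open Matrix Cfsg Cfsg.Lie Cfsg.Agent.ChevalleyStructure Cfsg.Agent.ChevalleyStructure.Elts
  Cfsg.Agent.H238.E8 Cfsg.Agent.H576.E8L Cfsg.Agent.H183.E8F
open Cfsg.Agent.BpExc.FamUntw (phi phi_coe)

universe u

variable {k : Type u} [Field k] [IsAlgClosed k] [CharP k 3]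

theorem phi_map (T : ↥(chevE8.group k)) :
    (((phi chevE8 k 3 1 T : ↥(chevE8.group k)) : GL chevE8.Idx k) : Matrix chevE8.Idx chevE8.Idx k) =
      ((T : GL chevE8.Idx k) : Matrix chevE8.Idx chevE8.Idx k).map (frobenius k 3) := by
  rw [phi_coe]
  ext i j
  simp [frobenius_def]

/-- **S5925, F2.** -/
theorem f2 {T : ↥(chevE8.group k)}
    (hT : NN k * phi chevE8 k 3 1 T = T * NN k)
    {q0 q1 : Matrix (Fin 5) (Fin 5) k} (h0 : IsUnit q0.det) (h1 : IsUnit q1.det) (hs0 : q0ᵀ = q0) (hs1 : q1ᵀ = q1)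
    (hTio : ∀ A0 A1 : Matrix (Fin 5) (Fin 5) k, A0.trace = 0 → A1.trace = 0 →
      ((T : GL chevE8.Idx k) : Matrix chevE8.Idx chevE8.Idx k) *ᵥ io k (A0, A1) =
        io k (-(q0⁻¹ * A0ᵀ * q0), -(q1⁻¹ * A1ᵀ * q1)))
    {g : k} (hg4 : g ^ 4 = 1 - g) :
    ∃ q : Matrix (Fin 5) (Fin 5) k, qᵀ = q ∧ (∀ i j, q i j ^ 81 = q i j) ∧ q * Mh q = 1 ∧ Mh q * q = 1 ∧
      Q2 (Mh q) * Q2 q = 1 ∧
      ∀ A0 A1 : Matrix (Fin 5) (Fin 5) k, A0.trace = 0 → A1.trace = 0 →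
        ((T : GL chevE8.Idx k) : Matrix chevE8.Idx chevE8.Idx k) *ᵥ
            io k (Dg g e0 * A0 * Di g e0, Dg g e1 * A1 * Di g e1) =
          io k (Dg g e0 * (-(Mh q * A0ᵀ * q)) * Di g e0, Dg g e1 * (-(Q2 (Mh q) * A1ᵀ * Q2 q)) * Di g e1) := by
  refine herm_scaled (io k) (fun A0 A1 B0 B1 a0 a1 b0 b1 h => ?_) (fun A0 A1 i => ?_) ?_ (fun A0 A1 a0 a1 => N_act A0 A1 a0 a1)
    h0 h1 hs0 hs1 hTio hg4
  · exact io_inj a0 a1 b0 b1 h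
  · exact io_map (frobenius k 3) A0 A1 i
  · have h2 := congrArg (fun z : ↥(chevE8.group k) => ((z : GL chevE8.Idx k) : Matrix chevE8.Idx chevE8.Idx k)) hT
    simp only [Subgroup.coe_mul, Units.val_mul] at h2
    rw [phi_map] at h2
    exact h2

end Cfsg.Agent.H138.E8L
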