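import Mathlib

/-!
# S5925, box F2: the matrix part (helper138)

`herm` : `q0`, `q1` symmetric 5x5 matrices over an algebraically closed field of characteristic 3 such that
`A ↦ -q_k⁻¹ Aᵀ q_k` are exchanged by the twisted Frobenius map: a multiple `q` of `q0` has entries in `F_81` and
`q R q^(9) R = 1`.
-/

set_option autoImplicit false

namespace Cfsg.Agent.H138.E8L

open Matrix

variable {K : Type*} [Field K]

/-- the signed permutation matrix `e_a ↦ eps_a e_(pi a)`, `pi = (0,3,1,4,2)`, `eps = (1,1,1,1,-1)` -/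
def M0 : Matrix (Fin 5) (Fin 5) K :=
  !![1, 0, 0, 0, 0; 0, 0, 1, 0, 0; 0, 0, 0, 0, -1; 0, 1, 0, 0, 0; 0, 0, 0, 1, 0]

/-- the signed permutation matrix `e_a ↦ del_a e_(rho a)`, `rho = (2,0,3,1,4)`, `del = (1,1,-1,-1,1)` -/
def M1 : Matrix (Fin 5) (Fin 5) K :=
  !![0, 1, 0, 0, 0; 0, 0, 0, -1, 0; 1, 0, 0, 0, 0; 0, 0, -1, 0, 0; 0, 0, 0, 0, 1]

/-- `e0 ↔ e2`, `e3 ↔ e4`, `e1 ↦ -e1` -/
def RR : Matrix (Fin 5) (Fin 5) K :=
  !![0, 0, 1, 0, 0; 0, -1, 0, 0, 0; 1, 0, 0, 0, 0; 0, 0, 0, 0, 1; 0, 0, 0, 1, 0]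

theorem M0_mul : (M0 : Matrix (Fin 5) (Fin 5) K) * M0ᵀ = 1 := by
  ext i j
  fin_cases i <;> fin_cases j <;> simp [M0, Matrix.mul_apply, Fin.sum_univ_succ]

theorem M0_mul' : (M0 : Matrix (Fin 5) (Fin 5) K)ᵀ * M0 = 1 := by
  ext i j
  fin_cases i <;> fin_cases j <;> simp [M0, Matrix.mul_apply, Fin.sum_univ_succ]

theorem M1_mul : (M1 : Matrix (Fin 5) (Fin 5) K) * M1ᵀ = 1 := by
  ext i j
  fin_cases i <;> fin_cases j <;> simp [M1, Matrix.mul_apply, Fin.sum_univ_succ]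

theorem M1_mul' : (M1 : Matrix (Fin 5) (Fin 5) K)ᵀ * M1 = 1 := by
  ext i j
  fin_cases i <;> fin_cases j <;> simp [M1, Matrix.mul_apply, Fin.sum_univ_succ]

theorem M1_M0 : (M1 : Matrix (Fin 5) (Fin 5) K) * M0 = RR := by
  ext i j
  fin_cases i <;> fin_cases j <;> simp [M1, M0, RR, Matrix.mul_apply, Fin.sum_univ_succ]

theorem RR_symm : (RR : Matrix (Fin 5) (Fin 5) K)ᵀ = RR := by
  ext i j
  fin_cases i <;> fin_cases j <;> simp [RR]

theorem RR_sq : (RR : Matrix (Fin 5) (Fin 5) K) * RR = 1 := by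
  ext i j
  fin_cases i <;> fin_cases j <;> simp [RR, Matrix.mul_apply, Fin.sum_univ_succ]

theorem M0_map (f : K →+* K) : (M0 : Matrix (Fin 5) (Fin 5) K).map f = M0 := by
  ext i j
  fin_cases i <;> fin_cases j <;> simp [M0]

theorem M1_map (f : K →+* K) : (M1 : Matrix (Fin 5) (Fin 5) K).map f = M1 := by
  ext i j
  fin_cases i <;> fin_cases j <;> simp [M1]

theorem RR_map (f : K →+* K) : (RR : Matrix (Fin 5) (Fin 5) K).map f = RR := by
  ext i j
  fin_cases i <;> fin_cases j <;> simp [RR]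

/-- two matrices inducing the same map on the traceless matrices are proportional -/
theorem scal {P Q : Matrix (Fin 5) (Fin 5) K} (hP : IsUnit P.det) (hQ : IsUnit Q.det)
    (h : ∀ A : Matrix (Fin 5) (Fin 5) K, A.trace = 0 → P⁻¹ * Aᵀ * P = Q⁻¹ * Aᵀ * Q) :
    ∃ c : K, c ≠ 0 ∧ P = c • Q := by
  have hPi := Matrix.mul_nonsing_inv P hP
  have hQi := Matrix.mul_nonsing_inv Q hQ
  have key : ∀ B : Matrix (Fin 5) (Fin 5) K, B.trace = 0 → B * (P * Q⁻¹) = P * Q⁻¹ * B := by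
    intro B hB
    have h1 := h Bᵀ (by rwa [Matrix.trace_transpose])
    rw [Matrix.transpose_transpose] at h1
    calc B * (P * Q⁻¹) = P * (P⁻¹ * B * P) * Q⁻¹ := by
          rw [← Matrix.mul_assoc, ← Matrix.mul_assoc, ← Matrix.mul_assoc, hPi, Matrix.one_mul]
      _ = P * (Q⁻¹ * B * Q) * Q⁻¹ := by rw [h1]
      _ = P * Q⁻¹ * B * (Q * Q⁻¹) := by simp only [Matrix.mul_assoc]
      _ = P * Q⁻¹ * B := by rw [hQi, Matrix.mul_one]
  obtain ⟨c, hc⟩ := Matrix.mem_range_scalar_of_commute_single (M := P * Q⁻¹) fun i j hij => by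
    show Commute (single i j 1) (P * Q⁻¹)
    rw [commute_iff_eq]
    exact key _ (by rw [Matrix.trace_single_eq_of_ne _ _ _ hij])
  have h2 : P = c • Q := by
    calc P = P * Q⁻¹ * Q := by rw [Matrix.mul_assoc, Matrix.nonsing_inv_mul Q hQ, Matrix.mul_one]
      _ = (Matrix.scalar (Fin 5) c) * Q := by rw [hc]
      _ = c • Q := by
        ext i j
        simp [Matrix.scalar_apply, Matrix.diagonal_mul]
  refine ⟨c, ?_, h2⟩
  rintro rfl
  rw [zero_smul] at h2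
  rw [h2, Matrix.det_zero] at hP
  exact hP.ne_zero rfl

theorem inv_smul_ne {c : K} (hc : c ≠ 0) {Q : Matrix (Fin 5) (Fin 5) K} (hQ : IsUnit Q.det) : (c • Q)⁻¹ = c⁻¹ • Q⁻¹ := by
  have h := Matrix.inv_smul' Q (Units.mk0 c hc) hQ
  simpa [Units.smul_def] using h

theorem conj_smul {c : K} (hc : c ≠ 0) (Q A : Matrix (Fin 5) (Fin 5) K) : (c • Q)⁻¹ * A * (c • Q) = Q⁻¹ * A * Q := by
  have h1 : (c • Q)⁻¹ = c⁻¹ • Q⁻¹ := by
    by_cases hQ : IsUnit Q.det
    · exact inv_smul_ne hc hQ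
    · have h2 : ¬ IsUnit (c • Q).det := by
        rw [Matrix.det_smul]
        intro h3
        exact hQ (isUnit_of_mul_isUnit_right h3)
      rw [Matrix.nonsing_inv_apply_not_isUnit _ hQ, Matrix.nonsing_inv_apply_not_isUnit _ h2, smul_zero]
  rw [h1, Matrix.smul_mul, Matrix.smul_mul, Matrix.mul_smul, smul_smul, inv_mul_cancel₀ hc, one_smul]

/-- **The hermitian condition.** -/
theorem herm [IsAlgClosed K] [CharP K 3] {q0 q1 : Matrix (Fin 5) (Fin 5) K} (h0 : IsUnit q0.det) (h1 : IsUnit q1.det)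
    (hs0 : q0ᵀ = q0)
    (e0 : ∀ A : Matrix (Fin 5) (Fin 5) K, A.trace = 0 →
      (q0.map (frobenius K 3))⁻¹ * Aᵀ * q0.map (frobenius K 3) = (M0ᵀ * q1 * M0)⁻¹ * Aᵀ * (M0ᵀ * q1 * M0))
    (e1 : ∀ A : Matrix (Fin 5) (Fin 5) K, A.trace = 0 →
      (q1.map (frobenius K 3))⁻¹ * Aᵀ * q1.map (frobenius K 3) = (M1ᵀ * q0⁻¹ * M1)⁻¹ * Aᵀ * (M1ᵀ * q0⁻¹ * M1)) :
    ∃ (q : Matrix (Fin 5) (Fin 5) K) (a b : K), a ≠ 0 ∧ b ≠ 0 ∧ q = a • q0 ∧ qᵀ = q ∧ IsUnit q.det ∧
      (∀ i j, q i j ^ 81 = q i j) ∧ q * RR * q.map (fun x => x ^ 9) * RR = 1 ∧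
      M0 * q.map (fun x => x ^ 3) * M0ᵀ = b • q1 := by
  set s : K →+* K := frobenius K 3 with hs
  have hsx : ∀ x, s x = x ^ 3 := fun x => rfl
  have dM0 : (M0 : Matrix (Fin 5) (Fin 5) K).det * (M0 : Matrix (Fin 5) (Fin 5) K)ᵀ.det = 1 := by
    rw [← Matrix.det_mul, M0_mul, Matrix.det_one]
  have dM1 : (M1 : Matrix (Fin 5) (Fin 5) K).det * (M1 : Matrix (Fin 5) (Fin 5) K)ᵀ.det = 1 := by
    rw [← Matrix.det_mul, M1_mul, Matrix.det_one]
  have u0 : IsUnit (q0.map s).det := by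
    rw [← RingHom.mapMatrix_apply, ← RingHom.map_det]
    exact h0.map s
  have u1 : IsUnit (q1.map s).det := by
    rw [← RingHom.mapMatrix_apply, ← RingHom.map_det]
    exact h1.map s
  have hq0i : IsUnit (q0⁻¹).det := by
    rw [Matrix.isUnit_nonsing_inv_det_iff]
    exact h0
  obtain ⟨c0, hc0, k0⟩ := scal u0 (Q := M0ᵀ * q1 * M0) (by
    rw [Matrix.det_mul, Matrix.det_mul]
    exact ((IsUnit.of_mul_eq_one_right _ dM0).mul h1).mul (IsUnit.of_mul_eq_one _ dM0)) e0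
  obtain ⟨c1, hc1, k1⟩ := scal u1 (Q := M1ᵀ * q0⁻¹ * M1) (by
    rw [Matrix.det_mul, Matrix.det_mul]
    exact ((IsUnit.of_mul_eq_one_right _ dM1).mul hq0i).mul (IsUnit.of_mul_eq_one _ dM1)) e1
  -- the second power
  set c : K := c0 ^ 3 * c1 with hc
  have hcne : c ≠ 0 := mul_ne_zero (pow_ne_zero _ hc0) hc1
  have hmap : ∀ (A B : Matrix (Fin 5) (Fin 5) K), (A * B).map s = A.map s * B.map s := fun A B => by
    rw [Matrix.map_mul]
  have hsm : ∀ (a : K) (A : Matrix (Fin 5) (Fin 5) K), (a • A).map s = s a • A.map s := fun a A => by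
    ext i j
    simp
  have k2 : (q0.map s).map s = c • (RR * q0⁻¹ * RR) := by
    rw [k0, hsm, hmap, hmap, k1, M0_map, Matrix.transpose_map, M0_map, hsx, hc, mul_smul]
    congr 1
    rw [← M1_M0, Matrix.mul_smul, Matrix.smul_mul]
    congr 1
    have h2 : (M1 * M0 : Matrix (Fin 5) (Fin 5) K) = M0ᵀ * M1ᵀ := by
      rw [← Matrix.transpose_mul, M1_M0, RR_symm]
    calc M0ᵀ * (M1ᵀ * q0⁻¹ * M1) * M0 = (M0ᵀ * M1ᵀ) * q0⁻¹ * (M1 * M0) := by simp only [Matrix.mul_assoc]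
      _ = (M1 * M0) * q0⁻¹ * (M1 * M0) := by rw [h2]
  have hs9 : ∀ A : Matrix (Fin 5) (Fin 5) K, A.map (fun x => x ^ 9) = (A.map s).map s := by
    intro A
    ext i j
    simp only [Matrix.map_apply, hsx]
    ring
  obtain ⟨a, ha⟩ := IsAlgClosed.exists_pow_nat_eq c⁻¹ (n := 10) (by norm_num)
  have ha0 : a ≠ 0 := by
    rintro rfl
    rw [zero_pow (by norm_num)] at ha
    exact inv_ne_zero hcne ha.symm
  have hqi : (a • q0)⁻¹ = a⁻¹ • q0⁻¹ := inv_smul_ne ha0 h0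
  have hu : IsUnit (a • q0).det := by
    rw [Matrix.det_smul]
    exact (IsUnit.mk0 _ (pow_ne_zero _ ha0)).mul h0
  -- `q^(9) = R q⁻¹ R`
  have k3 : (a • q0).map (fun x => x ^ 9) = RR * (a • q0)⁻¹ * RR := by
    rw [hs9, hsm, hsm, k2, hqi, hsx, hsx, smul_smul, Matrix.mul_smul, Matrix.smul_mul]
    congr 1
    have h3 : a ^ 10 * c = 1 := by rw [ha, inv_mul_cancel₀ hcne]
    apply eq_inv_of_mul_eq_one_left
    rw [← h3]; ring
  refine ⟨a • q0, a, a ^ 3 * c0, ha0, mul_ne_zero (pow_ne_zero _ ha0) hc0, rfl, ?_, hu, ?_, ?_, ?_⟩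
  · rw [Matrix.transpose_smul, hs0]
  · -- entries in `F_81`
    have k4 : a • q0 * (RR * (a • q0).map (fun x => x ^ 9) * RR) = 1 := by
      rw [k3]
      calc a • q0 * (RR * (RR * (a • q0)⁻¹ * RR) * RR) = a • q0 * ((RR * RR) * (a • q0)⁻¹ * (RR * RR)) := by
            simp only [Matrix.mul_assoc]
        _ = 1 := by rw [RR_sq, Matrix.one_mul, Matrix.mul_one, Matrix.mul_nonsing_inv _ hu]
    have k5 : RR * (a • q0).map (fun x => x ^ 9) * RR * (a • q0) = 1 := mul_eq_one_comm.1 k4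
    have h6 : ∀ A B : Matrix (Fin 5) (Fin 5) K, (A * B).map (fun x => x ^ 9) =
        A.map (fun x => x ^ 9) * B.map (fun x => x ^ 9) := fun A B => by
      rw [hs9, hs9, hs9, hmap, hmap]
    have h7 : (RR : Matrix (Fin 5) (Fin 5) K).map (fun x => x ^ 9) = RR := by
      rw [hs9, RR_map, RR_map]
    have h8 : (1 : Matrix (Fin 5) (Fin 5) K).map (fun x => x ^ 9) = 1 := by
      ext i j
      simp only [Matrix.map_apply, Matrix.one_apply]
      split_ifs <;> simp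
    have k6 : (a • q0).map (fun x => x ^ 9) * (RR * ((a • q0).map (fun x => x ^ 9)).map (fun x => x ^ 9) * RR) = 1 := by
      have := congrArg (fun A : Matrix (Fin 5) (Fin 5) K => A.map (fun x => x ^ 9)) k4
      rwa [h8, h6, h6, h6, h7] at this
    have k7 : (a • q0).map (fun x => x ^ 9) * (RR * (a • q0) * RR) = 1 := by
      have h9 : RR * ((a • q0).map (fun x => x ^ 9) * (RR * (a • q0) * RR)) = RR := by
        calc RR * ((a • q0).map (fun x => x ^ 9) * (RR * (a • q0) * RR)) =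
            (RR * (a • q0).map (fun x => x ^ 9) * RR * (a • q0)) * RR := by simp only [Matrix.mul_assoc]
          _ = RR := by rw [k5, Matrix.one_mul]
      calc (a • q0).map (fun x => x ^ 9) * (RR * (a • q0) * RR) =
          (RR * RR) * ((a • q0).map (fun x => x ^ 9) * (RR * (a • q0) * RR)) := by rw [RR_sq, Matrix.one_mul]
        _ = RR * (RR * ((a • q0).map (fun x => x ^ 9) * (RR * (a • q0) * RR))) := by rw [Matrix.mul_assoc]
        _ = 1 := by rw [h9, RR_sq]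
    have k8 : RR * ((a • q0).map (fun x => x ^ 9)).map (fun x => x ^ 9) * RR = RR * (a • q0) * RR := by
      have h9 := mul_eq_one_comm.1 k7
      calc RR * ((a • q0).map (fun x => x ^ 9)).map (fun x => x ^ 9) * RR =
          (RR * (a • q0) * RR * (a • q0).map (fun x => x ^ 9)) *
            (RR * ((a • q0).map (fun x => x ^ 9)).map (fun x => x ^ 9) * RR) := by rw [h9, Matrix.one_mul]
        _ = (RR * (a • q0) * RR) * ((a • q0).map (fun x => x ^ 9) *
            (RR * ((a • q0).map (fun x => x ^ 9)).map (fun x => x ^ 9) * RR)) := by simp only [Matrix.mul_assoc]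
        _ = RR * (a • q0) * RR := by rw [k6, Matrix.mul_one]
    have k9 : ((a • q0).map (fun x => x ^ 9)).map (fun x => x ^ 9) = a • q0 := by
      calc ((a • q0).map (fun x => x ^ 9)).map (fun x => x ^ 9) =
          (RR * RR) * ((a • q0).map (fun x => x ^ 9)).map (fun x => x ^ 9) * (RR * RR) := by
            rw [RR_sq, Matrix.one_mul, Matrix.mul_one]
        _ = RR * (RR * ((a • q0).map (fun x => x ^ 9)).map (fun x => x ^ 9) * RR) * RR := by
            simp only [Matrix.mul_assoc]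
        _ = RR * (RR * (a • q0) * RR) * RR := by rw [k8]
        _ = (RR * RR) * (a • q0) * (RR * RR) := by simp only [Matrix.mul_assoc]
        _ = a • q0 := by rw [RR_sq, Matrix.one_mul, Matrix.mul_one]
    intro i j
    have h9 := congrFun (congrFun k9 i) j
    simp only [Matrix.map_apply] at h9
    rw [← pow_mul] at h9
    exact h9
  · rw [k3]
    calc a • q0 * RR * (RR * (a • q0)⁻¹ * RR) * RR = a • q0 * (RR * RR) * (a • q0)⁻¹ * (RR * RR) := by
          simp only [Matrix.mul_assoc]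
      _ = 1 := by rw [RR_sq, Matrix.mul_one, Matrix.mul_one, Matrix.mul_nonsing_inv _ hu]
  · have h8 : (a • q0).map (fun x => x ^ 3) = (a ^ 3) • q0.map s := by
      ext i j
      simp [hsx, mul_pow]
    rw [h8, k0, smul_smul, Matrix.mul_smul, Matrix.smul_mul]
    congr 1
    calc M0 * (M0ᵀ * q1 * M0) * M0ᵀ = (M0 * M0ᵀ) * q1 * (M0 * M0ᵀ) := by simp only [Matrix.mul_assoc]
      _ = q1 := by rw [M0_mul, Matrix.one_mul, Matrix.mul_one]

end Cfsg.Agent.H138.E8L
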