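import Mathlib

/-!
# S5925: coordinates of the elements of `F_81` (helper138)

`exists_trits` : `K` a field of characteristic 3, `g ^ 4 = 1 - g`, `x ^ 81 = x`: then `x = a + b g + c g² + d g³` with
`a, b, c, d ∈ {0, 1, -1}`; `exists_log` : `x = 0` or `x = g ^ i`, `i < 80`.
-/

set_option autoImplicit false

namespace Cfsg.Agent.H138.E8L

variable {K : Type*} [Field K] [CharP K 3]

theorem three_zero : (3 : K) = 0 := by
  have := CharP.cast_eq_zero K 3
  exact_mod_cast this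

theorem g8 {g : K} (hg : g ^ 4 = 1 - g) : g ^ 8 = 1 + g + g ^ 2 := by
  have h3 : (3 : K) = 0 := three_zero
  have : g ^ 8 = (g ^ 4) ^ 2 := by ring
  rw [this, hg]
  linear_combination (-g) * h3

theorem g16 {g : K} (hg : g ^ 4 = 1 - g) : g ^ 16 = -1 + g - g ^ 3 := by
  have h3 : (3 : K) = 0 := three_zero
  have : g ^ 16 = (g ^ 8) ^ 2 := by ring
  rw [this, g8 hg]
  have h4 : (1 + g + g ^ 2) ^ 2 = 1 + 2 * g + 3 * g ^ 2 + 2 * g ^ 3 + g ^ 4 := by ring
  rw [h4, hg]
  linear_combination (1 + g ^ 2 + g ^ 3) * h3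

theorem g40 {g : K} (hg : g ^ 4 = 1 - g) : g ^ 40 = -1 := by
  have h3 : (3 : K) = 0 := three_zero
  have e : g ^ 40 = (g ^ 16) ^ 2 * g ^ 8 := by ring
  have h5 : (g ^ 16) ^ 2 = g ^ 32 := by ring
  have h6 : (-1 + g - g ^ 3) ^ 2 = 1 + g ^ 2 + g ^ 6 - 2 * g + 2 * g ^ 3 - 2 * g ^ 4 := by ring
  have h7 : g ^ 6 = g ^ 2 - g ^ 3 := by
    have : g ^ 6 = g ^ 4 * g ^ 2 := by ring
    rw [this, hg]; ring
  have h8 : (-1 + g - g ^ 3) ^ 2 = -1 + 2 * g ^ 2 + g ^ 3 := by
    rw [h6, h7, hg]; ring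
  rw [e, g16 hg, h8, g8 hg]
  have h9 : (-1 + 2 * g ^ 2 + g ^ 3) * (1 + g + g ^ 2) = -1 - g + g ^ 2 + 3 * g ^ 3 + 3 * g ^ 4 + g ^ 4 * g := by ring
  rw [h9, hg]
  linear_combination (g ^ 3 + 1 - g) * h3

theorem g_ne {g : K} (hg : g ^ 4 = 1 - g) : g ≠ 0 := by
  rintro rfl
  simp at hg

theorem two_ne : (2 : K) ≠ 0 := by
  intro h
  have h3 : (3 : K) = 0 := three_zero
  have : (1 : K) = 0 := by linear_combination h3 - h
  exact one_ne_zero this

theorem prim {g : K} (hg : g ^ 4 = 1 - g) : IsPrimitiveRoot g 80 := by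
  have h3 : (3 : K) = 0 := three_zero
  have h80 : g ^ 80 = 1 := by
    have : g ^ 80 = (g ^ 40) ^ 2 := by ring
    rw [this, g40 hg]; ring
  have h40 : g ^ 40 ≠ 1 := by
    rw [g40 hg]
    intro h
    apply two_ne (K := K)
    linear_combination -h
  have h16 : g ^ 16 ≠ 1 := by
    rw [g16 hg]
    intro h
    -- `g³ = g + 1`, so `g⁴ = g² + g = 1 - g`
    have e1 : g ^ 3 = g + 1 := by linear_combination -h - h3
    have e2 : g ^ 4 = g ^ 2 + g := by
      have : g ^ 4 = g ^ 3 * g := by ring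
      rw [this, e1]; ring
    have e3 : g ^ 2 = 1 + g := by linear_combination hg - e2 - g * h3
    have e4 : g ^ 3 = 1 + 2 * g := by
      have : g ^ 3 = g ^ 2 * g := by ring
      rw [this, e3]
      linear_combination e3
    exact g_ne hg (by linear_combination e1 - e4)
  have h1 : orderOf g ∣ 80 := orderOf_dvd_of_pow_eq_one h80
  have h2 : orderOf g = 80 := by
    have h4 : ∀ n ∈ Nat.divisors 80, ¬ (n ∣ 16 ∨ n ∣ 40) → n = 80 := by decide
    refine h4 _ (Nat.mem_divisors.2 ⟨h1, by norm_num⟩) ?_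
    rintro (h5 | h5)
    · exact h16 (orderOf_dvd_iff_pow_eq_one.1 h5)
    · exact h40 (orderOf_dvd_iff_pow_eq_one.1 h5)
  rw [← h2]
  exact IsPrimitiveRoot.orderOf g

theorem exists_log {g : K} (hg : g ^ 4 = 1 - g) {x : K} (hx : x ^ 81 = x) : x = 0 ∨ ∃ i < 80, x = g ^ i := by
  by_cases h0 : x = 0
  · exact Or.inl h0
  · right
    have h1 : x ^ 80 = 1 := by
      have h2 : x ^ 80 * x = 1 * x := by rw [one_mul, ← pow_succ]; exact hx
      exact mul_right_cancel₀ h0 h2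
    obtain ⟨i, hi, h2⟩ := (prim hg).eq_pow_of_pow_eq_one h1
    exact ⟨i, hi, h2.symm⟩

/-- one of `0, 1, -1` -/
def IsTrit (a : K) : Prop := a = 0 ∨ a = 1 ∨ a = -1

theorem IsTrit.add {a b : K} (ha : IsTrit a) (hb : IsTrit b) : IsTrit (a + b) := by
  have h3 : (3 : K) = 0 := three_zero
  rcases ha with rfl | rfl | rfl <;> rcases hb with rfl | rfl | rfl
  · left; ring
  · right; left; ring
  · right; right; ring
  · right; left; ring
  · right; right; linear_combination h3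
  · left; ring
  · right; right; ring
  · left; ring
  · right; left; linear_combination -h3

theorem IsTrit.neg {a : K} (ha : IsTrit a) : IsTrit (-a) := by
  rcases ha with rfl | rfl | rfl
  · left; ring
  · right; right; ring
  · right; left; ring

/-- **Coordinates in `F_81`.** -/
theorem exists_trits {g : K} (hg : g ^ 4 = 1 - g) {x : K} (hx : x ^ 81 = x) :
    ∃ a b c d : K, IsTrit a ∧ IsTrit b ∧ IsTrit c ∧ IsTrit d ∧ x = a + b * g + c * g ^ 2 + d * g ^ 3 := by
  rcases exists_log hg hx with rfl | ⟨i, -, rfl⟩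
  · exact ⟨0, 0, 0, 0, Or.inl rfl, Or.inl rfl, Or.inl rfl, Or.inl rfl, by ring⟩
  · clear hx
    induction i with
    | zero => exact ⟨1, 0, 0, 0, Or.inr (Or.inl rfl), Or.inl rfl, Or.inl rfl, Or.inl rfl, by ring⟩
    | succ i ih =>
      obtain ⟨a, b, c, d, ha, hb, hc, hd, e⟩ := ih
      refine ⟨d, a + -d, b, c, hd, ha.add hd.neg, hb, hc, ?_⟩
      rw [pow_succ, e]
      linear_combination d * hg

/-- the elements `a + b g + c g² + d g³` satisfy `x ^ 81 = x` -/
theorem pow81_of_trits {g : K} (hg : g ^ 4 = 1 - g) {a b c d : K} (ha : IsTrit a) (hb : IsTrit b) (hc : IsTrit c)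
    (hd : IsTrit d) : (a + b * g + c * g ^ 2 + d * g ^ 3) ^ 81 = a + b * g + c * g ^ 2 + d * g ^ 3 := by
  have key : ∀ y z : K, (y + z) ^ 81 = y ^ 81 + z ^ 81 := fun y z => by
    have := add_pow_char_pow (R := K) (p := 3) (n := 4) y z
    simpa using this
  have h81 : g ^ 81 = g := by
    rw [pow_succ, (prim hg).pow_eq_one, one_mul]
  have ht : ∀ {y : K}, IsTrit y → y ^ 81 = y := by
    intro y hy
    rcases hy with rfl | rfl | rfl
    · simp
    · simp
    · exact Odd.neg_one_pow (by decide)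
  rw [key, key, key, mul_pow, mul_pow, mul_pow, ← pow_mul, ← pow_mul, mul_comm 2 81, mul_comm 3 81, pow_mul, pow_mul,
    h81, ht ha, ht hb, ht hc, ht hd]

end Cfsg.Agent.H138.E8L
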