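import Cfsg.Agent.H138.E8L.Herm
import Cfsg.Agent.H138.E8L.Trit

/-!
# S5925, box F2: the scaled frame (helper138)

`herm_scaled` : in the basis `E_ab^s = g^(r_a - r_b) E_ab` the matrix `q` satisfies `q * Mh q = 1`,
`Mh q a b = J_a J_b q_(σa σb)^9`, and the second block is `Q2 q (3a) (3b) = S_a S_b q_ab^3`.
-/

set_option autoImplicit false

namespace Cfsg.Agent.H138.E8L

open Matrix

variable {K : Type*} [Field K]

/-- exponents of the first block -/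
def e0 : Fin 5 → ℕ := ![0, 15, 30, 40, 30]
/-- exponents of the second block -/
def e1 : Fin 5 → ℕ := ![0, 10, 10, 5, 0]
/-- `σ a = 2 - a` -/
def sg : Fin 5 → Fin 5 := ![2, 1, 0, 4, 3]
/-- `a ↦ 2 a` -/
def tw : Fin 5 → Fin 5 := ![0, 2, 4, 1, 3]
/-- signs -/
def J : Fin 5 → ℤ := ![1, 1, 1, -1, -1]
/-- signs -/
def S : Fin 5 → ℤ := ![1, -1, 1, -1, -1]

/-- the conjugate matrix -/
def Mh (q : Matrix (Fin 5) (Fin 5) K) : Matrix (Fin 5) (Fin 5) K :=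
  Matrix.of fun a b => (J a : K) * (J b : K) * q (sg a) (sg b) ^ 9

/-- the second block -/
def Q2 (q : Matrix (Fin 5) (Fin 5) K) : Matrix (Fin 5) (Fin 5) K :=
  Matrix.of fun a b => (S (tw a) : K) * (S (tw b) : K) * q (tw a) (tw b) ^ 3

/-- diagonal scaling -/
def Dg (g : K) (e : Fin 5 → ℕ) : Matrix (Fin 5) (Fin 5) K := Matrix.diagonal fun a => g ^ e a
/-- inverse diagonal scaling -/
def Di (g : K) (e : Fin 5 → ℕ) : Matrix (Fin 5) (Fin 5) K := Matrix.diagonal fun a => (g⁻¹) ^ e a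

theorem Dg_Di {g : K} (hg : g ≠ 0) (e : Fin 5 → ℕ) : Dg g e * Di g e = 1 := by
  unfold Dg Di
  rw [Matrix.diagonal_mul_diagonal, ← Matrix.diagonal_one]
  congr 1
  funext a
  rw [← mul_pow, mul_inv_cancel₀ hg, one_pow]

theorem Di_Dg {g : K} (hg : g ≠ 0) (e : Fin 5 → ℕ) : Di g e * Dg g e = 1 := mul_eq_one_comm.1 (Dg_Di hg e)

theorem Dg_t (g : K) (e : Fin 5 → ℕ) : (Dg g e)ᵀ = Dg g e := Matrix.diagonal_transpose _
theorem Di_t (g : K) (e : Fin 5 → ℕ) : (Di g e)ᵀ = Di g e := Matrix.diagonal_transpose _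

theorem Dg_mul (g : K) (e : Fin 5 → ℕ) (A : Matrix (Fin 5) (Fin 5) K) (a b : Fin 5) :
    (Dg g e * A * Dg g e) a b = g ^ e a * A a b * g ^ e b := by
  unfold Dg
  rw [Matrix.mul_diagonal, Matrix.diagonal_mul]

theorem Di_mul (g : K) (e : Fin 5 → ℕ) (A : Matrix (Fin 5) (Fin 5) K) (a b : Fin 5) :
    (Di g e * A * Di g e) a b = (g⁻¹) ^ e a * A a b * (g⁻¹) ^ e b := by
  unfold Di
  rw [Matrix.mul_diagonal, Matrix.diagonal_mul]

/-- signs of `RR` -/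
def rs (a : Fin 5) : ℤ := if a = 1 then -1 else 1
/-- signs of `M0` -/
def ms (a : Fin 5) : ℤ := if tw a = 4 then -1 else 1

theorem RR_apply (a b : Fin 5) : (RR : Matrix (Fin 5) (Fin 5) K) a b = if b = sg a then (rs a : K) else 0 := by
  fin_cases a <;> fin_cases b <;> simp [RR, sg, rs]

theorem M0_apply (a b : Fin 5) : (M0 : Matrix (Fin 5) (Fin 5) K) a b = if b = tw a then (ms a : K) else 0 := by
  fin_cases a <;> fin_cases b <;> simp [M0, tw, ms]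

theorem RR_mul (A : Matrix (Fin 5) (Fin 5) K) (a b : Fin 5) : (RR * A : Matrix (Fin 5) (Fin 5) K) a b = (rs a : K) * A (sg a) b := by
  rw [Matrix.mul_apply]
  simp [RR_apply]

theorem mul_RR (A : Matrix (Fin 5) (Fin 5) K) (a b : Fin 5) : (A * RR : Matrix (Fin 5) (Fin 5) K) a b = (rs b : K) * A a (sg b) := by
  have h : A * RR = (RR * Aᵀ)ᵀ := by rw [Matrix.transpose_mul, RR_symm, Matrix.transpose_transpose]
  rw [h, Matrix.transpose_apply, RR_mul, Matrix.transpose_apply]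

theorem RR_conj (A : Matrix (Fin 5) (Fin 5) K) (a b : Fin 5) :
    (RR * A * RR : Matrix (Fin 5) (Fin 5) K) a b = (rs a : K) * (rs b : K) * A (sg a) (sg b) := by
  rw [mul_RR, RR_mul]; ring

theorem M0_mul_apply (A : Matrix (Fin 5) (Fin 5) K) (a b : Fin 5) : (M0 * A : Matrix (Fin 5) (Fin 5) K) a b = (ms a : K) * A (tw a) b := by
  rw [Matrix.mul_apply]
  simp [M0_apply]

theorem M0_conj (A : Matrix (Fin 5) (Fin 5) K) (a b : Fin 5) :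
    (M0 * A * M0ᵀ : Matrix (Fin 5) (Fin 5) K) a b = (ms a : K) * (ms b : K) * A (tw a) (tw b) := by
  have h : M0 * A * M0ᵀ = (M0 * (M0 * A)ᵀ)ᵀ := by rw [Matrix.transpose_mul, Matrix.transpose_transpose]
  rw [h, Matrix.transpose_apply, M0_mul_apply, Matrix.transpose_apply, M0_mul_apply]; ring

theorem conj_scal {g : K} (hg : g ≠ 0) (e : Fin 5 → ℕ) (q : Matrix (Fin 5) (Fin 5) K)
    (A : Matrix (Fin 5) (Fin 5) K) :
    q⁻¹ * (Dg g e * A * Di g e)ᵀ * q =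
      Dg g e * ((Di g e * q⁻¹ * Di g e) * Aᵀ * (Dg g e * q * Dg g e)) * Di g e := by
  rw [Matrix.transpose_mul, Matrix.transpose_mul, Dg_t, Di_t]
  have h1 := Dg_Di hg e
  have h2 := Di_Dg hg e
  calc q⁻¹ * (Di g e * (Aᵀ * Dg g e)) * q = 1 * q⁻¹ * Di g e * Aᵀ * Dg g e * q * 1 := by
        rw [Matrix.one_mul, Matrix.mul_one]; simp only [Matrix.mul_assoc]
    _ = (Dg g e * Di g e) * q⁻¹ * Di g e * Aᵀ * Dg g e * q * (Dg g e * Di g e) := by rw [h1]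
    _ = _ := by simp only [Matrix.mul_assoc]

theorem inv_scal {g : K} (hg : g ≠ 0) (e : Fin 5 → ℕ) {q : Matrix (Fin 5) (Fin 5) K} (hq : IsUnit q.det) :
    (Di g e * q⁻¹ * Di g e) * (Dg g e * q * Dg g e) = 1 := by
  calc (Di g e * q⁻¹ * Di g e) * (Dg g e * q * Dg g e) = Di g e * q⁻¹ * (Di g e * Dg g e) * q * Dg g e := by
        simp only [Matrix.mul_assoc]
    _ = Di g e * (q⁻¹ * q) * Dg g e := by rw [Di_Dg hg, Matrix.mul_one]; simp only [Matrix.mul_assoc]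
    _ = 1 := by rw [Matrix.nonsing_inv_mul q hq, Matrix.mul_one, Di_Dg hg]

theorem pow_red {h : K} (h40 : h ^ 40 = -1) (n m : ℕ) : h ^ (n + 80 * m) = h ^ n := by
  have : h ^ 80 = 1 := by
    have : h ^ 80 = (h ^ 40) ^ 2 := by ring
    rw [this, h40]; ring
  rw [pow_add, pow_mul, this, one_pow, mul_one]

/-- the exponents of the sign relations -/
theorem sig_id {h : K} (h40 : h ^ 40 = -1) (a : Fin 5) :
    (rs a : K) * (h ^ e0 a * h ^ (9 * e0 (sg a))) = (J a : K) * h ^ 30 := by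
  rw [← pow_add]
  have key : ∀ n m : ℕ, h ^ (n + 40 + 80 * m) = -h ^ n := fun n m => by
    rw [pow_red h40, pow_add, h40]; ring
  fin_cases a
  · show ((rs 0 : ℤ) : K) * h ^ (30 + 80 * 3) = ((J 0 : ℤ) : K) * h ^ 30
    rw [pow_red h40]; simp [rs, J]
  · show ((rs 1 : ℤ) : K) * h ^ (30 + 40 + 80 * 1) = ((J 1 : ℤ) : K) * h ^ 30
    rw [key]; simp [rs, J]
  · show ((rs 2 : ℤ) : K) * h ^ 30 = ((J 2 : ℤ) : K) * h ^ 30
    simp [rs, J]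
  · show ((rs 3 : ℤ) : K) * h ^ (30 + 40 + 80 * 3) = ((J 3 : ℤ) : K) * h ^ 30
    rw [key]; simp [rs, J]
  · show ((rs 4 : ℤ) : K) * h ^ (30 + 40 + 80 * 4) = ((J 4 : ℤ) : K) * h ^ 30
    rw [key]; simp [rs, J]

/-- the exponents of the second block -/
theorem sig_id2 {g : K} (hg : g ≠ 0) (h40 : g⁻¹ ^ 40 = -1) (a : Fin 5) :
    (ms a : K) * (g ^ e1 a * (g⁻¹) ^ (3 * e0 (tw a))) = (S (tw a) : K) := by
  have h1 : g * g⁻¹ = 1 := mul_inv_cancel₀ hg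
  have key : ∀ n m : ℕ, g ^ n * g⁻¹ ^ (n + m) = g⁻¹ ^ m := fun n m => by
    rw [pow_add, ← mul_assoc, ← mul_pow, h1, one_pow, one_mul]
  have h80 : g⁻¹ ^ 80 = 1 := by
    have : g⁻¹ ^ 80 = (g⁻¹ ^ 40) ^ 2 := by ring
    rw [this, h40]; ring
  fin_cases a
  · show ((ms 0 : ℤ) : K) * (g ^ 0 * (g⁻¹) ^ 0) = ((S 0 : ℤ) : K)
    simp [ms, S, tw]
  · show ((ms 1 : ℤ) : K) * (g ^ 10 * (g⁻¹) ^ (10 + 80)) = ((S 2 : ℤ) : K)
    rw [key, h80]; simp [ms, S, tw]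
  · show ((ms 2 : ℤ) : K) * (g ^ 10 * (g⁻¹) ^ (10 + 80)) = ((S 4 : ℤ) : K)
    rw [key, h80]; simp [ms, S, tw]
  · show ((ms 3 : ℤ) : K) * (g ^ 5 * (g⁻¹) ^ (5 + 40)) = ((S 1 : ℤ) : K)
    rw [key, h40]; simp [ms, S, tw]
  · show ((ms 4 : ℤ) : K) * (g ^ 0 * (g⁻¹) ^ (0 + 120)) = ((S 3 : ℤ) : K)
    rw [key]
    have : g⁻¹ ^ 120 = (g⁻¹ ^ 40) ^ 3 := by ring
    rw [this, h40]; simp [ms, S, tw]; ring

theorem J_sq (a : Fin 5) : (J a : K) * (J a : K) = 1 := by fin_cases a <;> simp [J]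
theorem S_sq (a : Fin 5) : (S a : K) * (S a : K) = 1 := by fin_cases a <;> simp [S]

theorem tw_bij : Function.Bijective tw := by decide

theorem Q2_mul [CharP K 3] (A B : Matrix (Fin 5) (Fin 5) K) : Q2 (A * B) = Q2 A * Q2 B := by
  ext a b
  rw [Matrix.mul_apply]
  show (S (tw a) : K) * (S (tw b) : K) * (A * B) (tw a) (tw b) ^ 3 =
    ∑ c, ((S (tw a) : K) * (S (tw c) : K) * A (tw a) (tw c) ^ 3) * ((S (tw c) : K) * (S (tw b) : K) * B (tw c) (tw b) ^ 3)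
  have h1 : (A * B) (tw a) (tw b) ^ 3 = ∑ c, (A (tw a) c ^ 3) * (B c (tw b) ^ 3) := by
    rw [Matrix.mul_apply]
    have := map_sum (frobenius K 3) (fun c => A (tw a) c * B c (tw b)) Finset.univ
    rw [frobenius_def] at this
    rw [this]
    exact Finset.sum_congr rfl fun c _ => by rw [frobenius_def, mul_pow]
  rw [h1, Finset.mul_sum, ← Function.Bijective.sum_comp tw_bij]
  refine Finset.sum_congr rfl fun c _ => ?_
  have h2 := S_sq (K := K) (tw c)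
  linear_combination (-(S (tw a) : K) * (S (tw b) : K) * A (tw a) (tw c) ^ 3 * B (tw c) (tw b) ^ 3) * h2

theorem Q2_one : Q2 (1 : Matrix (Fin 5) (Fin 5) K) = 1 := by
  ext a b
  show (S (tw a) : K) * (S (tw b) : K) * (1 : Matrix (Fin 5) (Fin 5) K) (tw a) (tw b) ^ 3 = _
  by_cases h : a = b
  · subst h
    rw [Matrix.one_apply_eq, Matrix.one_apply_eq, S_sq]; ring
  · rw [Matrix.one_apply_ne h, Matrix.one_apply_ne fun e => h (tw_bij.1 e)]; ring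

/-- **S5925, F2, scaled frame.** -/
theorem herm_scaled {Idx : Type*} [Fintype Idx] [IsAlgClosed K] [CharP K 3]
    (io : (Matrix (Fin 5) (Fin 5) K × Matrix (Fin 5) (Fin 5) K) →ₗ[K] (Idx → K))
    (hinj : ∀ A0 A1 B0 B1 : Matrix (Fin 5) (Fin 5) K, A0.trace = 0 → A1.trace = 0 → B0.trace = 0 → B1.trace = 0 →
      io (A0, A1) = io (B0, B1) → A0 = B0 ∧ A1 = B1)
    (hσ : ∀ (A0 A1 : Matrix (Fin 5) (Fin 5) K) (i : Idx),
      io (A0.map (frobenius K 3), A1.map (frobenius K 3)) i = io (A0, A1) i ^ 3)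
    {T N : Matrix Idx Idx K} (hTN : N * T.map (frobenius K 3) = T * N)
    (hNa : ∀ A0 A1 : Matrix (Fin 5) (Fin 5) K, A0.trace = 0 → A1.trace = 0 →
      N *ᵥ io (A0, A1) = io (-(M1 * A1ᵀ * M1ᵀ), M0 * A0 * M0ᵀ))
    {q0 q1 : Matrix (Fin 5) (Fin 5) K} (h0 : IsUnit q0.det) (h1 : IsUnit q1.det) (hs0 : q0ᵀ = q0) (hs1 : q1ᵀ = q1)
    (hT : ∀ A0 A1 : Matrix (Fin 5) (Fin 5) K, A0.trace = 0 → A1.trace = 0 →
      T *ᵥ io (A0, A1) = io (-(q0⁻¹ * A0ᵀ * q0), -(q1⁻¹ * A1ᵀ * q1)))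
    {g : K} (hg4 : g ^ 4 = 1 - g) :
    ∃ q : Matrix (Fin 5) (Fin 5) K, qᵀ = q ∧ (∀ i j, q i j ^ 81 = q i j) ∧ q * Mh q = 1 ∧ Mh q * q = 1 ∧
      Q2 (Mh q) * Q2 q = 1 ∧
      ∀ A0 A1 : Matrix (Fin 5) (Fin 5) K, A0.trace = 0 → A1.trace = 0 →
        T *ᵥ io (Dg g e0 * A0 * Di g e0, Dg g e1 * A1 * Di g e1) =
          io (Dg g e0 * (-(Mh q * A0ᵀ * q)) * Di g e0, Dg g e1 * (-(Q2 (Mh q) * A1ᵀ * Q2 q)) * Di g e1) := by
  obtain ⟨p, hpt, hpu, h81, hher, hact⟩ := herm_io io hinj hσ hTN hNa h0 h1 hs0 hs1 hT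
  have hg := g_ne hg4
  have hgi : g * g⁻¹ = 1 := mul_inv_cancel₀ hg
  have hh40 : g⁻¹ ^ 40 = -1 := by rw [inv_pow, g40 hg4]; simp
  have hh80 : g⁻¹ ^ 80 = 1 := by
    have : g⁻¹ ^ 80 = (g⁻¹ ^ 40) ^ 2 := by ring
    rw [this, hh40]; ring
  have hg81 : g ^ 81 = g := by rw [pow_succ, (prim hg4).pow_eq_one, one_mul]
  -- the scaled matrix
  set q : Matrix (Fin 5) (Fin 5) K := g ^ 2 • (Dg g e0 * p * Dg g e0) with hq
  have hqa : ∀ a b, q a b = g ^ 2 * (g ^ e0 a * p a b * g ^ e0 b) := fun a b => by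
    rw [hq, Matrix.smul_apply, Dg_mul, smul_eq_mul]
  have hpi : p⁻¹ = RR * p.map (fun x => x ^ 9) * RR := by
    apply Matrix.inv_eq_right_inv
    simpa only [Matrix.mul_assoc] using hher
  have hpa : ∀ a b, p a b = g⁻¹ ^ 2 * (g⁻¹ ^ e0 a * q a b * g⁻¹ ^ e0 b) := fun a b => by
    rw [hqa]
    have e2 : ∀ n : ℕ, g⁻¹ ^ n * g ^ n = 1 := fun n => by rw [← mul_pow, inv_mul_cancel₀ hg, one_pow]
    calc p a b = (g⁻¹ ^ 2 * g ^ 2) * (g⁻¹ ^ e0 a * g ^ e0 a) * p a b * (g⁻¹ ^ e0 b * g ^ e0 b) := by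
          rw [e2, e2, e2]; ring
      _ = _ := by ring
  -- the conjugate matrix is the inverse
  have hM : Mh q = g⁻¹ ^ 2 • (Di g e0 * p⁻¹ * Di g e0) := by
    ext a b
    rw [Matrix.smul_apply, Di_mul, smul_eq_mul, hpi, RR_conj, Matrix.map_apply, hpa]
    have s1 := sig_id hh40 (K := K) a
    have s2 := sig_id hh40 (K := K) b
    show (J a : K) * (J b : K) * q (sg a) (sg b) ^ 9 = _
    have e1 : g⁻¹ ^ 2 * (g⁻¹ ^ e0 a * ((rs a : K) * (rs b : K) *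
        (g⁻¹ ^ 2 * (g⁻¹ ^ e0 (sg a) * q (sg a) (sg b) * g⁻¹ ^ e0 (sg b))) ^ 9) * g⁻¹ ^ e0 b) =
        ((rs a : K) * (g⁻¹ ^ e0 a * g⁻¹ ^ (9 * e0 (sg a)))) * ((rs b : K) * (g⁻¹ ^ e0 b * g⁻¹ ^ (9 * e0 (sg b)))) *
          (g⁻¹ ^ 20 * q (sg a) (sg b) ^ 9) := by
      rw [mul_pow, mul_pow, mul_pow, ← pow_mul, ← pow_mul, ← pow_mul, mul_comm (e0 (sg a)) 9, mul_comm (e0 (sg b)) 9]
      ring
    rw [e1, s1, s2]
    have e3 : (J a : K) * g⁻¹ ^ 30 * ((J b : K) * g⁻¹ ^ 30) * (g⁻¹ ^ 20 * q (sg a) (sg b) ^ 9) =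
        (J a : K) * (J b : K) * q (sg a) (sg b) ^ 9 * g⁻¹ ^ 80 := by ring
    rw [e3, hh80, mul_one]
  have hMq : Mh q * q = 1 := by
    rw [hM, hq, Matrix.smul_mul, Matrix.mul_smul, smul_smul, inv_scal hg e0 hpu, ← mul_pow, inv_mul_cancel₀ hg, one_pow,
      one_smul]
  -- the second block
  set p1 : Matrix (Fin 5) (Fin 5) K := M0 * p.map (fun x => x ^ 3) * M0ᵀ with hp1
  have hQ : Q2 q = g ^ 6 • (Dg g e1 * p1 * Dg g e1) := by
    ext a b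
    rw [Matrix.smul_apply, Dg_mul, smul_eq_mul, hp1, M0_conj, Matrix.map_apply, hpa]
    have s1 := sig_id2 hg hh40 a
    have s2 := sig_id2 hg hh40 b
    show (S (tw a) : K) * (S (tw b) : K) * q (tw a) (tw b) ^ 3 = _
    have e1' : g ^ 6 * (g ^ e1 a * ((ms a : K) * (ms b : K) *
        (g⁻¹ ^ 2 * (g⁻¹ ^ e0 (tw a) * q (tw a) (tw b) * g⁻¹ ^ e0 (tw b))) ^ 3) * g ^ e1 b) =
        ((ms a : K) * (g ^ e1 a * g⁻¹ ^ (3 * e0 (tw a)))) * ((ms b : K) * (g ^ e1 b * g⁻¹ ^ (3 * e0 (tw b)))) *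
          ((g ^ 6 * g⁻¹ ^ 6) * q (tw a) (tw b) ^ 3) := by
      rw [mul_pow, mul_pow, mul_pow, ← pow_mul, ← pow_mul, ← pow_mul, mul_comm (e0 (tw a)) 3, mul_comm (e0 (tw b)) 3]
      ring
    rw [e1', s1, s2, ← mul_pow, hgi, one_pow, one_mul]
  have hp1u : IsUnit p1.det := by
    have e : p1 * (M0 * p⁻¹.map (fun x => x ^ 3) * M0ᵀ) = 1 := by
      have hm : p.map (fun x => x ^ 3) * p⁻¹.map (fun x => x ^ 3) = 1 := by
        have h2 : p.map (fun x => x ^ 3) = p.map (frobenius K 3) := rfl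
        have h3 : p⁻¹.map (fun x => x ^ 3) = p⁻¹.map (frobenius K 3) := rfl
        rw [h2, h3, ← Matrix.map_mul, Matrix.mul_nonsing_inv p hpu]
        ext i j
        simp [Matrix.one_apply]
      calc p1 * (M0 * p⁻¹.map (fun x => x ^ 3) * M0ᵀ) =
          M0 * p.map (fun x => x ^ 3) * (M0ᵀ * M0) * p⁻¹.map (fun x => x ^ 3) * M0ᵀ := by
            rw [hp1]; simp only [Matrix.mul_assoc]
        _ = M0 * (p.map (fun x => x ^ 3) * p⁻¹.map (fun x => x ^ 3)) * M0ᵀ := by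
            rw [M0_mul', Matrix.mul_one]; simp only [Matrix.mul_assoc]
        _ = 1 := by rw [hm, Matrix.mul_one, M0_mul]
    exact (Matrix.isUnit_iff_isUnit_det _).1 (IsUnit.of_mul_eq_one _ e)
  have hQQ : Q2 (Mh q) * Q2 q = 1 := by rw [← Q2_mul, hMq, Q2_one]
  have hQi : Q2 (Mh q) = g⁻¹ ^ 6 • (Di g e1 * p1⁻¹ * Di g e1) := by
    have e : (g⁻¹ ^ 6 • (Di g e1 * p1⁻¹ * Di g e1)) * Q2 q = 1 := by
      rw [hQ, Matrix.smul_mul, Matrix.mul_smul, smul_smul, inv_scal hg e1 hp1u, ← mul_pow, inv_mul_cancel₀ hg, one_pow,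
        one_smul]
    have e' : Q2 q * Q2 (Mh q) = 1 := mul_eq_one_comm.1 hQQ
    calc Q2 (Mh q) = (g⁻¹ ^ 6 • (Di g e1 * p1⁻¹ * Di g e1)) * Q2 q * Q2 (Mh q) := by rw [e, Matrix.one_mul]
      _ = g⁻¹ ^ 6 • (Di g e1 * p1⁻¹ * Di g e1) := by rw [Matrix.mul_assoc, e', Matrix.mul_one]
  have cs : ∀ (n : ℕ) (X Y A : Matrix (Fin 5) (Fin 5) K), (g⁻¹ ^ n • X) * A * (g ^ n • Y) = X * A * Y := by
    intro n X Y A
    rw [Matrix.smul_mul, Matrix.smul_mul, Matrix.mul_smul, smul_smul, ← mul_pow, inv_mul_cancel₀ hg, one_pow, one_smul]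
  have htr : ∀ (e : Fin 5 → ℕ) (A : Matrix (Fin 5) (Fin 5) K), A.trace = 0 → (Dg g e * A * Di g e).trace = 0 := by
    intro e A hA
    rw [Matrix.trace_mul_comm, ← Matrix.mul_assoc, Di_Dg hg, Matrix.one_mul, hA]
  refine ⟨q, ?_, ?_, mul_eq_one_comm.1 hMq, hMq, hQQ, ?_⟩
  · rw [hq, Matrix.transpose_smul, Matrix.transpose_mul, Matrix.transpose_mul, Dg_t, hpt, Matrix.mul_assoc]
  · intro i j
    rw [hqa]
    have e5 : ∀ n : ℕ, (g ^ n) ^ 81 = g ^ n := fun n => by rw [← pow_mul, mul_comm, pow_mul, hg81]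
    rw [mul_pow, mul_pow, mul_pow, e5, e5, e5, h81]
  · intro A0 A1 t0 t1
    rw [hact _ _ (htr e0 A0 t0) (htr e1 A1 t1)]
    congr 1
    rw [conj_scal hg, conj_scal hg, hQi, hM, hQ]
    conv_rhs => rw [hq]
    rw [cs, cs, Matrix.mul_neg, Matrix.neg_mul, Matrix.mul_neg, Matrix.neg_mul]

end Cfsg.Agent.H138.E8L
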